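import Cfsg.Agent.H955.L16.Stmt
import Cfsg.Agent.H911.L16.Alg

/-!
# S5916, A-SOLVE: the solutions of `[v, t₀ v] = 0` in the weight spaces 1 and 3 (helper547)
-/

set_option autoImplicit false
set_option maxRecDepth 100000

namespace Cfsg.Agent.H547.L16

open Matrix Cfsg Cfsg.Lie
open Cfsg.Agent.H939.L64 (KK LK brK brL brL_apply)
open Cfsg.Agent.H939.L16
open Cfsg.Agent.H955.L16 (T vR vN RelR)
open Cfsg.Agent.H413.L16 (er hv hr tg br_rr br_neg er_ge er_of nr rk8)
open Cfsg.Agent.H876.L64 (two_zero)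
open Cfsg.Agent.ChevalleyStructure.Columns (car cor)

/-! ### linearity -/

/-- `xl r c` as a linear map -/
noncomputable def xlL (r : Fin chevE8.nroots) (c : KK) : LK →ₗ[KK] LK where
  toFun := xl r c
  map_add' u v := by
    unfold xl
    rw [← brL_apply, ← brL_apply, ← brL_apply, map_add, Pi.add_apply, smul_add, mul_add, add_smul]
    abel
  map_smul' a v := by
    unfold xl
    rw [← brL_apply, ← brL_apply, map_smul, Pi.smul_apply, RingHom.id_apply, smul_add, smul_add, smul_smul, smul_smul,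
      smul_smul, smul_eq_mul, mul_comm c a]
    congr 2
    ring

theorem xlL_apply (r : Fin chevE8.nroots) (c : KK) (v : LK) : xlL r c v = xl r c v := rfl

/-- `iz` as a linear map -/
noncomputable def izL : LK →ₗ[KK] LK :=
  xlL ⟨121, by decide +kernel⟩ 1 ∘ₗ xlL ⟨126, by decide +kernel⟩ 1 ∘ₗ xlL ⟨141, by decide +kernel⟩ 1 ∘ₗ
    xlL ⟨135, by decide +kernel⟩ 1

theorem izL_apply (v : LK) : izL v = iz v := rfl

/-! ### lists of roots -/

/-- the sum of the root vectors of a list -/
noncomputable def lis (l : List ℕ) : LK := (l.map er).sum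

theorem lis_append (l l' : List ℕ) : lis (l ++ l') = lis l + lis l' := by
  unfold lis; rw [List.map_append, List.sum_append]

theorem lis_cons (s : ℕ) (l : List ℕ) : lis (s :: l) = er s + lis l := by
  unfold lis; rw [List.map_cons, List.sum_cons]

theorem lis_nil : lis [] = 0 := rfl

/-- one step of `xl r 1` -/
def stp (r : ℕ) (l : List ℕ) : List ℕ := l ++ (l.map (tg r)).filter fun t => decide (t < 240)

theorem er_val {s : ℕ} (hs : s < chevE8.nroots) (u : Fin chevE8.nroots) :
    er s (Sum.inr u) = if s = u then 1 else 0 := by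
  rw [er_of hs]
  by_cases h : s = u
  · rw [if_pos h]
    have : (⟨s, hs⟩ : Fin chevE8.nroots) = u := Fin.ext h
    rw [this, Pi.single_eq_same]
  · rw [if_neg h, Pi.single_eq_of_ne]
    intro h1
    exact h (congrArg Fin.val (Sum.inr.inj h1)).symm

theorem lis_filter (l : List ℕ) : lis (l.filter fun t => decide (t < 240)) = lis l := by
  induction l with
  | nil => rfl
  | cons s l ih =>
    rw [List.filter_cons, lis_cons]
    split_ifs with h
    · rw [lis_cons, ih]
    · rw [ih, er_ge (by simpa using h), zero_add]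

theorem xl_lis {r : ℕ} (hr : r < chevE8.nroots) : ∀ l : List ℕ, (∀ s ∈ l, s < 240 ∧ s ≠ 239 - r) →
    xlL ⟨r, hr⟩ 1 (lis l) = lis (stp r l) := by
  intro l hl
  unfold stp
  rw [lis_append, lis_filter]
  have hr' : r < 240 := by rw [← nr]; exact hr
  induction l with
  | nil => rw [lis_nil, map_zero]; rfl
  | cons s l ih =>
    have h1 := hl s (List.mem_cons_self ..)
    have h2 := ih fun t ht => hl t (List.mem_cons_of_mem _ ht)
    have hs : s < chevE8.nroots := by rw [nr]; exact h1.1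
    have h3 : xlL ⟨r, hr⟩ 1 (er s) = er s + er (tg r s) := by
      rw [xlL_apply]
      unfold xl
      rw [one_smul, br_rr hr' h1.1 h1.2, one_pow, one_mul, er_val hs, if_neg, zero_smul, add_zero]
      intro h4
      have h5 : s = chevE8.nroots - (r + 1) := by rw [Fin.val_rev] at h4; exact h4
      rw [nr] at h5
      have := h1.2
      omega
    rw [lis_cons, map_add, h2, h3, List.map_cons, lis_cons]
    abel

/-- `iz` on a root vector -/
def il (s : ℕ) : List ℕ := stp 121 (stp 126 (stp 141 (stp 135 [s])))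

def okil (s : ℕ) : Bool :=
  decide (s < 240 ∧ s ≠ 239 - 135) && (stp 135 [s]).all (fun t => decide (t < 240 ∧ t ≠ 239 - 141)) &&
    (stp 141 (stp 135 [s])).all (fun t => decide (t < 240 ∧ t ≠ 239 - 126)) &&
    (stp 126 (stp 141 (stp 135 [s]))).all (fun t => decide (t < 240 ∧ t ≠ 239 - 121)) &&
    (il s).all (fun t => decide (t < 240))

theorem iz_er {s : ℕ} (h : okil s = true) : izL (er s) = lis (il s) ∧ ∀ t ∈ il s, t < 240 := by
  unfold okil at h
  simp only [Bool.and_eq_true, decide_eq_true_eq, List.all_eq_true] at h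
  obtain ⟨⟨⟨⟨h1, h2⟩, h3⟩, h4⟩, h5⟩ := h
  refine ⟨?_, h5⟩
  have h0 : er s = lis [s] := by rw [lis_cons, lis_nil, add_zero]
  unfold izL
  rw [LinearMap.comp_apply, LinearMap.comp_apply, LinearMap.comp_apply, h0,
    xl_lis (r := 135) _ _ (fun t ht => by rw [List.mem_singleton.1 ht]; exact h1), xl_lis (r := 141) _ _ h2,
    xl_lis (r := 126) _ _ h3, xl_lis (r := 121) _ _ h4]
  rfl

/-- `w⁴` -/
def w4 (s : ℕ) : ℕ := wi (wi (wi (wi s)))

/-- `t₀` on a root vector -/
def tl (s : ℕ) : List ℕ := il (w4 s)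

variable {Fp : LK → LK} {ta : LK →ₗ[KK] LK}

/-- `t₀` as a linear map -/
noncomputable def TL (ta : LK →ₗ[KK] LK) : LK →ₗ[KK] LK := izL ∘ₗ ta

theorem TL_apply (v : LK) : TL ta v = T ta v := rfl

theorem TL_er (h : Ops Fp ta) {s : ℕ} (hs0 : s < 240) (hs : okil (w4 s) = true) :
    TL ta (er s) = lis (tl s) ∧ ∀ t ∈ tl s, t < 240 := by
  obtain ⟨h1, h2⟩ := iz_er hs
  refine ⟨?_, h2⟩
  unfold TL
  rw [LinearMap.comp_apply, h.ter s hs0]
  exact h1

/-! ### coordinates of brackets -/

/-- the coordinates of `[e_s, e_t]` -/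
def cf (s t : ℕ) (a : Fin 8 ⊕ ℕ) : ℕ :=
  a.elim (fun i : Fin 8 => if t = 239 - s then (cor chevE8 s (i : ℕ)).natAbs % 2 else 0)
    fun u => if t = 239 - s then 0 else if tg s t = u then 1 else 0

/-- the index -/
def ia (a : Fin 8 ⊕ ℕ) (h : ∀ u, a = Sum.inr u → u < 240) : chevE8.Idx :=
  match a, h with
  | Sum.inl i, _ => Sum.inl (Fin.cast rk8.symm i)
  | Sum.inr u, h => Sum.inr ⟨u, by rw [nr]; exact h u rfl⟩

theorem cast_nat_abs (z : ℤ) : ((z.natAbs % 2 : ℕ) : KK) = (z : KK) := by
  have h1 : ((z.natAbs % 2 : ℕ) : ℤ) - z = 2 * ((((z.natAbs % 2 : ℕ) : ℤ) - z) / 2) := by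
    have : (((z.natAbs % 2 : ℕ) : ℤ) - z) % 2 = 0 := by omega
    omega
  have h2 : (((z.natAbs % 2 : ℕ) : ℤ) : KK) - (z : KK) = 0 := by
    rw [← Int.cast_sub, h1, Int.cast_mul, Int.cast_ofNat, two_zero, zero_mul]
  rw [Int.cast_natCast] at h2
  exact sub_eq_zero.1 h2

theorem br_coord {s t : ℕ} (hs : s < 240) (ht : t < 240) (a : Fin 8 ⊕ ℕ) (h : ∀ u, a = Sum.inr u → u < 240) :
    brK (er s) (er t) (ia a h) = (cf s t a : KK) := by
  by_cases hst : t = 239 - s
  · subst hst
    rw [br_neg hs]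
    rcases a with i | u
    · show ((cor chevE8 s (i : ℕ) : ℤ) : KK) = ((if 239 - s = 239 - s then (cor chevE8 s i).natAbs % 2 else 0 : ℕ) : KK)
      rw [if_pos rfl, cast_nat_abs]
    · show (0 : KK) = ((if 239 - s = 239 - s then 0 else if tg s (239 - s) = u then 1 else 0 : ℕ) : KK)
      rw [if_pos rfl, Nat.cast_zero]
  · rw [br_rr hs ht hst]
    rcases a with i | u
    · show er (tg s t) (Sum.inl _) = ((if t = 239 - s then (cor chevE8 s i).natAbs % 2 else 0 : ℕ) : KK)
      rw [if_neg hst, Nat.cast_zero]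
      unfold er
      split_ifs with h1
      · exact Pi.single_eq_of_ne (by simp) _
      · rfl
    · have hu : u < 240 := h u rfl
      show er (tg s t) (Sum.inr ⟨u, _⟩) = ((if t = 239 - s then 0 else if tg s t = u then 1 else 0 : ℕ) : KK)
      rw [if_neg hst]
      by_cases h1 : tg s t < 240
      · rw [er_val (by rw [nr]; exact h1)]
        split_ifs <;> simp
      · rw [er_ge (by omega), if_neg (by omega), Nat.cast_zero]
        rfl

/-- the matrix of the quadratic form `v ↦ [v, t₀ v]_a` -/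
def NN (s s' : ℕ) (a : Fin 8 ⊕ ℕ) : ℕ := ((tl s').map fun t => cf s t a).sum

theorem br_TL (h : Ops Fp ta) {s s' : ℕ} (hs : s < 240) (hs0 : s' < 240) (hs' : okil (w4 s') = true)
    (a : Fin 8 ⊕ ℕ) (ha : ∀ u, a = Sum.inr u → u < 240) :
    brK (er s) (TL ta (er s')) (ia a ha) = (NN s s' a : KK) := by
  obtain ⟨h1, ht⟩ := TL_er h hs0 hs'
  rw [h1]
  unfold NN
  generalize tl s' = l at ht
  induction l with
  | nil =>
    rw [lis_nil, ← brL_apply, map_zero]
    show (0 : KK) = ((0 : ℕ) : KK)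
    rw [Nat.cast_zero]
  | cons t l ih =>
    rw [lis_cons, ← brL_apply, map_add, brL_apply, brL_apply, Pi.add_apply,
      br_coord hs (ht t (List.mem_cons_self ..)) a ha, ih fun u hu => ht u (List.mem_cons_of_mem _ hu),
      List.map_cons, List.sum_cons, Nat.cast_add]

/-! ### quadratic forms in characteristic two -/

theorem even_cast {m : ℕ} (h : m % 2 = 0) : (m : KK) = 0 := by
  obtain ⟨k, rfl⟩ := Nat.dvd_of_mod_eq_zero h
  rw [Nat.cast_mul, Nat.cast_ofNat, two_zero, zero_mul]

theorem quad_zero {n : ℕ} (x : Fin n → KK) (M : Fin n → Fin n → ℕ) (h1 : ∀ i k, i ≠ k → (M i k + M k i) % 2 = 0)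
    (h2 : ∀ i, M i i % 2 = 0) : ∑ i, ∑ k, x i * x k * (M i k : KK) = 0 := by
  rw [← Fintype.sum_prod_type' (fun i k => x i * x k * (M i k : KK))]
  apply Finset.sum_involution (fun (p : Fin n × Fin n) _ => (p.2, p.1))
  · intro p _
    by_cases h : p.1 = p.2
    · rw [h, even_cast (h2 _)]; ring
    · have := even_cast (h1 _ _ h)
      rw [Nat.cast_add] at this
      show x p.1 * x p.2 * (M p.1 p.2 : KK) + x p.2 * x p.1 * (M p.2 p.1 : KK) = 0
      linear_combination x p.1 * x p.2 * this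
  · intro p _ hp he
    apply hp
    have h : p.1 = p.2 := (congrArg Prod.snd he)
    rw [h, even_cast (h2 _), mul_zero]
  · intro p _; exact Finset.mem_univ _
  · intro p _; rfl

theorem count_sum {n : ℕ} (x : Fin n → KK) (L : List (Fin n × Fin n)) :
    (L.map fun p => x p.1 * x p.2).sum = ∑ i, ∑ k, x i * x k * ((L.count (i, k) : ℕ) : KK) := by
  induction L with
  | nil => simp
  | cons p L ih =>
    rw [List.map_cons, List.sum_cons, ih]
    have h1 : ∀ i k : Fin n, x i * x k * (((p :: L).count (i, k) : ℕ) : KK) =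
        x i * x k * ((L.count (i, k) : ℕ) : KK) + (if i = p.1 then if k = p.2 then x i * x k else 0 else 0) := by
      intro i k
      rw [List.count_cons]
      by_cases hi : i = p.1 <;> by_cases hk : k = p.2
      · have : (p == (i, k)) = true := by rw [hi, hk]; simp
        rw [this, if_pos rfl, if_pos hi, if_pos hk, Nat.cast_add, Nat.cast_one]; ring
      · have : (p == (i, k)) = false := by
          rw [beq_eq_false_iff_ne]; intro h; exact hk (by rw [h])
        rw [this, if_neg (by simp), if_pos hi, if_neg hk]; simp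
      · have : (p == (i, k)) = false := by
          rw [beq_eq_false_iff_ne]; intro h; exact hi (by rw [h])
        rw [this, if_neg (by simp), if_neg hi]; simp
      · have : (p == (i, k)) = false := by
          rw [beq_eq_false_iff_ne]; intro h; exact hi (by rw [h])
        rw [this, if_neg (by simp), if_neg hi]; simp
    simp_rw [h1, Finset.sum_add_distrib]
    rw [add_comm]
    congr 1
    rw [Finset.sum_eq_single p.1, Finset.sum_eq_single p.2]
    · rw [if_pos rfl, if_pos rfl]
    · intro k _ hk; rw [if_pos rfl, if_neg hk]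
    · intro h; exact absurd (Finset.mem_univ _) h
    · intro i _ hi
      exact Finset.sum_eq_zero fun k _ => by rw [if_neg hi]
    · intro h; exact absurd (Finset.mem_univ _) h

/-- the check for a normal form -/
def okq {n : ℕ} (M : Fin n → Fin n → ℕ) (L : List (Fin n × Fin n)) : Bool :=
  (List.finRange n).all fun i => (List.finRange n).all fun k =>
    if i = k then decide ((M i i + L.count (i, i)) % 2 = 0)
    else decide ((M i k + L.count (i, k) + (M k i + L.count (k, i))) % 2 = 0)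

theorem quad_eq {n : ℕ} (x : Fin n → KK) {M : Fin n → Fin n → ℕ} {L : List (Fin n × Fin n)} (h : okq M L = true) :
    ∑ i, ∑ k, x i * x k * (M i k : KK) = (L.map fun p => x p.1 * x p.2).sum := by
  have h1 : ∀ i k, if i = k then (M i i + L.count (i, i)) % 2 = 0
      else (M i k + L.count (i, k) + (M k i + L.count (k, i))) % 2 = 0 := by
    intro i k
    have := List.all_eq_true.1 (List.all_eq_true.1 h i (List.mem_finRange i)) k (List.mem_finRange k)
    by_cases hik : i = k
    · rw [if_pos hik] at this ⊢; exact of_decide_eq_true this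
    · rw [if_neg hik] at this ⊢; exact of_decide_eq_true this
  have h2 := quad_zero x (fun i k => M i k + L.count (i, k)) (fun i k hik => by
    have := h1 i k
    rwa [if_neg hik] at this) (fun i => by
    have := h1 i i
    rwa [if_pos rfl] at this)
  simp_rw [Nat.cast_add, mul_add, Finset.sum_add_distrib] at h2
  rw [← count_sum] at h2
  have h3 : (2 : KK) = 0 := two_zero
  linear_combination h2 - (L.map fun p => x p.1 * x p.2).sum * h3

/-- the general vector -/
noncomputable def vec {n : ℕ} (S : Fin n → ℕ) (x : Fin n → KK) : LK := ∑ k, x k • er (S k)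

/-- **the equations** -/
theorem eqn (h : Ops Fp ta) {n : ℕ} {S : Fin n → ℕ}
    (hS : ((List.finRange n).all fun k => decide (S k < 240) && okil (w4 (S k))) = true) {x : Fin n → KK}
    (h0 : brK (vec S x) (TL ta (vec S x)) = 0) (a : Fin 8 ⊕ ℕ) (ha : ∀ u, a = Sum.inr u → u < 240)
    {L : List (Fin n × Fin n)} (hL : okq (fun i k => NN (S i) (S k) a) L = true) :
    (L.map fun p => x p.1 * x p.2).sum = 0 := by
  have h1 : ∀ k, S k < 240 ∧ okil (w4 (S k)) = true := by
    intro k
    have := List.all_eq_true.1 hS k (List.mem_finRange k)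
    rwa [Bool.and_eq_true, decide_eq_true_eq] at this
  rw [← quad_eq x hL]
  have h2 := congrFun h0 (ia a ha)
  unfold vec at h2
  rw [← brL_apply, map_sum, LinearMap.sum_apply, Finset.sum_apply] at h2
  refine Eq.trans ?_ (show _ = (0 : KK) from h2)
  refine Finset.sum_congr rfl fun i _ => ?_
  rw [map_smul, LinearMap.smul_apply, Pi.smul_apply, map_sum, map_sum, Finset.sum_apply, Finset.smul_sum]
  refine Finset.sum_congr rfl fun k _ => ?_
  rw [map_smul, map_smul, Pi.smul_apply, brL_apply, br_TL h (h1 i).1 (h1 k).1 (h1 k).2 a ha, smul_eq_mul, smul_eq_mul]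
  ring

/-- membership in a weight space -/
theorem mem_Wt {n : ℕ} {S : Fin n → ℕ} {a : ZMod 17} (hS : ((List.range 240).all fun s =>
      !decide (wt16 s = a) || (List.finRange n).any fun k => decide (S k = s)) = true) {v : LK} (hv : v ∈ Wt a) :
    ∃ x : Fin n → KK, v = vec S x := by
  unfold Wt at hv
  induction hv using Submodule.span_induction with
  | mem v h =>
    obtain ⟨s, hs, hw, rfl⟩ := h
    have h1 := List.all_eq_true.1 hS s (List.mem_range.2 hs)
    rw [Bool.or_eq_true, Bool.not_eq_true', decide_eq_false_iff_not] at h1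
    obtain ⟨k, -, hk⟩ := List.any_eq_true.1 (h1.resolve_left (not_not.2 hw))
    refine ⟨Pi.single k 1, ?_⟩
    unfold vec
    rw [Finset.sum_eq_single k]
    · rw [Pi.single_eq_same, one_smul, of_decide_eq_true hk]
    · intro i _ hi
      rw [Pi.single_eq_of_ne hi, zero_smul]
    · intro h; exact absurd (Finset.mem_univ _) h
  | zero =>
    refine ⟨0, ?_⟩
    unfold vec
    simp
  | add u v _ _ hu hv =>
    obtain ⟨x, rfl⟩ := hu
    obtain ⟨y, rfl⟩ := hv
    refine ⟨x + y, ?_⟩
    unfold vec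
    rw [← Finset.sum_add_distrib]
    exact Finset.sum_congr rfl fun k _ => by rw [Pi.add_apply, add_smul]
  | smul c v _ hv =>
    obtain ⟨x, rfl⟩ := hv
    refine ⟨c • x, ?_⟩
    unfold vec
    rw [Finset.smul_sum]
    exact Finset.sum_congr rfl fun k _ => by rw [Pi.smul_apply, smul_smul, smul_eq_mul]

/-! ### weight 1 -/

/-- the roots of weight 1 -/
def S1 : Fin 15 → ℕ := ![0, 123, 124, 127, 128, 130, 131, 136, 137, 142, 143, 147, 148, 162, 163]

/-- the roots of weight 3 -/
def S3 : Fin 14 → ℕ := ![1, 2, 125, 129, 153, 154, 156, 157, 166, 167, 171, 172, 174, 184]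

theorem hS1 : ((List.finRange 15).all fun k => decide (S1 k < 240) && okil (w4 (S1 k))) = true := by decide +kernel

theorem hS3 : ((List.finRange 14).all fun k => decide (S3 k < 240) && okil (w4 (S3 k))) = true := by decide +kernel

theorem cov1 : ((List.range 240).all fun s =>
    !decide (wt16 s = 1) || (List.finRange 15).any fun k => decide (S1 k = s)) = true := by decide +kernel

theorem cov3 : ((List.range 240).all fun s =>
    !decide (wt16 s = 3) || (List.finRange 14).any fun k => decide (S3 k = s)) = true := by decide +kernel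

theorem k1_h0 : okq (fun i k => NN (S1 i) (S1 k) (Sum.inl 0)) [(13, 13)] = true := by decide +kernel

theorem k1_e118 : okq (fun i k => NN (S1 i) (S1 k) (Sum.inr 118)) [(1, 1)] = true := by decide +kernel

theorem k1_e98 : okq (fun i k => NN (S1 i) (S1 k) (Sum.inr 98)) [(5, 5)] = true := by decide +kernel

theorem k1_h6 : okq (fun i k => NN (S1 i) (S1 k) (Sum.inl 6)) [(0, 0), (1, 2), (1, 4), (2, 3)] = true := by decide +kernel

theorem k1_e121 : okq (fun i k => NN (S1 i) (S1 k) (Sum.inr 121)) [(1, 2), (1, 4), (2, 2), (2, 3)] = true := by decide +kernel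

theorem k1_h1 : okq (fun i k => NN (S1 i) (S1 k) (Sum.inl 1)) [(0, 0), (5, 9), (5, 10), (5, 11), (5, 12), (6, 9), (6, 11), (7, 9), (7, 10), (8, 9)] = true := by decide +kernel

theorem k1_h2 : okq (fun i k => NN (S1 i) (S1 k) (Sum.inl 2)) [(5, 7), (5, 8), (5, 11), (5, 12), (6, 7), (6, 11), (7, 9), (7, 10), (8, 9), (13, 14)] = true := by decide +kernel

theorem k1_e141 : okq (fun i k => NN (S1 i) (S1 k) (Sum.inr 141)) [(5, 9), (5, 10), (5, 11), (5, 12), (6, 9), (6, 11), (7, 9), (7, 10), (8, 9), (9, 9)] = true := by decide +kernel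

theorem k1_e135 : okq (fun i k => NN (S1 i) (S1 k) (Sum.inr 135)) [(5, 7), (5, 8), (5, 11), (5, 12), (6, 7), (6, 11), (7, 7), (7, 9), (7, 10), (8, 9), (13, 14), (14, 14)] = true := by decide +kernel

theorem k1_h4 : okq (fun i k => NN (S1 i) (S1 k) (Sum.inl 4)) [(0, 0), (1, 3), (1, 4), (2, 3), (5, 6), (5, 8), (5, 10), (5, 12), (6, 7), (6, 9), (6, 11), (7, 10), (8, 9)] = true := by decide +kernel

theorem k1_e126 : okq (fun i k => NN (S1 i) (S1 k) (Sum.inr 126)) [(1, 3), (1, 4), (2, 3), (3, 3), (5, 6), (5, 8), (5, 10), (5, 12), (6, 6), (6, 7), (6, 9), (6, 11), (7, 10), (8, 9)] = true := by decide +kernel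

theorem sum15 (f : Fin 15 → LK) : ∑ k, f k = f 0 + f 1 + f 2 + f 3 + f 4 + f 5 + f 6 + f 7 + f 8 + f 9 + f 10 + f 11 +
    f 12 + f 13 + f 14 := by
  simp only [Fin.sum_univ_castSucc, Fin.sum_univ_zero, zero_add]
  rfl

theorem sum14 (f : Fin 14 → LK) : ∑ k, f k = f 0 + f 1 + f 2 + f 3 + f 4 + f 5 + f 6 + f 7 + f 8 + f 9 + f 10 + f 11 +
    f 12 + f 13 := by
  simp only [Fin.sum_univ_castSucc, Fin.sum_univ_zero, zero_add]
  rfl

/-- **A-SOLVE, weight 1** -/
theorem solve_one (h : Ops Fp ta) {v : LK} (hv : v ∈ Wt 1) (h0 : brK v (T ta v) = 0) :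
    ∃ k o1 o3 r1 r2 r3 r0 : KK, RelR o1 o3 r1 r3 ∧ v = vR k o1 o3 r1 r2 r3 r0 := by
  obtain ⟨x, rfl⟩ := mem_Wt cov1 hv
  rw [← TL_apply] at h0
  have e1 := eqn h hS1 h0 (Sum.inl 0) (fun u h => by cases h) (L := [(13, 13)]) k1_h0
  have e2 := eqn h hS1 h0 (Sum.inr 118) (fun u h => by cases h; decide) (L := [(1, 1)]) k1_e118
  have e3 := eqn h hS1 h0 (Sum.inr 98) (fun u h => by cases h; decide) (L := [(5, 5)]) k1_e98
  have e4 := eqn h hS1 h0 (Sum.inl 6) (fun u h => by cases h) (L := [(0, 0), (1, 2), (1, 4), (2, 3)]) k1_h6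
  have e5 := eqn h hS1 h0 (Sum.inr 121) (fun u h => by cases h; decide) (L := [(1, 2), (1, 4), (2, 2), (2, 3)]) k1_e121
  have e6 := eqn h hS1 h0 (Sum.inl 1) (fun u h => by cases h) (L := [(0, 0), (5, 9), (5, 10), (5, 11), (5, 12), (6, 9), (6, 11), (7, 9), (7, 10), (8, 9)]) k1_h1
  have e7 := eqn h hS1 h0 (Sum.inl 2) (fun u h => by cases h) (L := [(5, 7), (5, 8), (5, 11), (5, 12), (6, 7), (6, 11), (7, 9), (7, 10), (8, 9), (13, 14)]) k1_h2
  have e8 := eqn h hS1 h0 (Sum.inr 141) (fun u h => by cases h; decide) (L := [(5, 9), (5, 10), (5, 11), (5, 12), (6, 9), (6, 11), (7, 9), (7, 10), (8, 9), (9, 9)]) k1_e141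
  have e9 := eqn h hS1 h0 (Sum.inr 135) (fun u h => by cases h; decide) (L := [(5, 7), (5, 8), (5, 11), (5, 12), (6, 7), (6, 11), (7, 7), (7, 9), (7, 10), (8, 9), (13, 14), (14, 14)]) k1_e135
  have e10 := eqn h hS1 h0 (Sum.inl 4) (fun u h => by cases h) (L := [(0, 0), (1, 3), (1, 4), (2, 3), (5, 6), (5, 8), (5, 10), (5, 12), (6, 7), (6, 9), (6, 11), (7, 10), (8, 9)]) k1_h4
  have e11 := eqn h hS1 h0 (Sum.inr 126) (fun u h => by cases h; decide) (L := [(1, 3), (1, 4), (2, 3), (3, 3), (5, 6), (5, 8), (5, 10), (5, 12), (6, 6), (6, 7), (6, 9), (6, 11), (7, 10), (8, 9)]) k1_e126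
  simp only [List.map_cons, List.map_nil, List.sum_cons, List.sum_nil] at e1 e2 e3 e4 e5 e6 e7 e8 e9 e10 e11
  obtain ⟨z0, z124, z123, z162, z142, z130, hc⟩ := Cfsg.Agent.H911.L16.solve1 (K := KK) two_zero (c := x 0) (v128 := x 4)
    (v124 := x 2) (v127 := x 3) (v123 := x 1) (v163 := x 14) (v162 := x 13) (v148 := x 12) (v143 := x 10) (v137 := x 8)
    (v131 := x 6) (v147 := x 11) (v142 := x 9) (v136 := x 7) (v130 := x 5) (by linear_combination e1)
    (by linear_combination e2) (by linear_combination e3) (by linear_combination e4) (by linear_combination e5)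
    (by linear_combination e6) (by linear_combination e7) (by linear_combination e8) (by linear_combination e9)
    (by linear_combination e10) (by linear_combination e11)
  have hvec : vec S1 x = x 3 • er 127 + x 4 • er 128 + x 6 • er 131 + x 7 • er 136 + x 8 • er 137 + x 10 • er 143 +
      x 11 • er 147 + x 12 • er 148 + x 14 • er 163 := by
    show ∑ k, x k • er (S1 k) = _
    rw [sum15, z0, z123, z124, z130, z142, z162]
    simp only [zero_smul, zero_add, add_zero]
    rfl
  rcases hc with ⟨h1, h2, h3, h4⟩ | ⟨h1, h2, h3, h4⟩ | ⟨h1, h2, h3, h4⟩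
  · refine ⟨x 4, 0, 0, x 11, x 8, x 10, x 12, ⟨zero_mul _, zero_mul _, zero_mul _⟩, ?_⟩
    rw [hvec, h1, h2, h3, h4]
    unfold vR
    simp only [zero_smul, zero_add, add_zero]
    abel
  · refine ⟨x 4, x 6, 0, 0, x 8, x 10, x 12, ⟨mul_zero _, mul_zero _, zero_mul _⟩, ?_⟩
    rw [hvec, h1, h2, h3, h4]
    unfold vR
    simp only [zero_smul, add_zero, smul_add]
    abel
  · refine ⟨x 4, 0, x 14, x 11, x 8, 0, x 12, ⟨zero_mul _, zero_mul _, mul_zero _⟩, ?_⟩
    rw [hvec, h1, h2, h3, h4]
    unfold vR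
    simp only [zero_smul, zero_add, add_zero, smul_add]
    abel

/-! ### weight 3 -/

theorem k3_e104 : okq (fun i k => NN (S3 i) (S3 k) (Sum.inr 104)) [(12, 12)] = true := by decide +kernel

theorem k3_e98 : okq (fun i k => NN (S3 i) (S3 k) (Sum.inr 98)) [(8, 8)] = true := by decide +kernel

theorem k3_h7 : okq (fun i k => NN (S3 i) (S3 k) (Sum.inl 7)) [(0, 0), (2, 2)] = true := by decide +kernel

theorem k3_e113 : okq (fun i k => NN (S3 i) (S3 k) (Sum.inr 113)) [(2, 2), (4, 4)] = true := by decide +kernel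

theorem k3_e135 : okq (fun i k => NN (S3 i) (S3 k) (Sum.inr 135)) [(12, 13), (13, 13)] = true := by decide +kernel

theorem k3_h2 : okq (fun i k => NN (S3 i) (S3 k) (Sum.inl 2)) [(4, 4), (8, 8), (12, 12), (12, 13)] = true := by decide +kernel

theorem k3_e141 : okq (fun i k => NN (S3 i) (S3 k) (Sum.inr 141)) [(8, 10), (8, 11), (9, 10), (10, 10)] = true := by decide +kernel

theorem k3_h1 : okq (fun i k => NN (S3 i) (S3 k) (Sum.inl 1)) [(0, 0), (4, 4), (8, 10), (8, 11), (9, 10), (12, 12)] = true := by decide +kernel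

theorem k3_e126 : okq (fun i k => NN (S3 i) (S3 k) (Sum.inr 126)) [(2, 3), (3, 3), (4, 6), (4, 7), (5, 6), (6, 6)] = true := by decide +kernel

theorem k3_h4 : okq (fun i k => NN (S3 i) (S3 k) (Sum.inl 4)) [(0, 0), (2, 3), (4, 4), (4, 6), (4, 7), (5, 6), (8, 8), (12, 12)] = true := by decide +kernel

theorem k3_e121 : okq (fun i k => NN (S3 i) (S3 k) (Sum.inr 121)) [(0, 1), (1, 1), (4, 5), (4, 7), (5, 5), (5, 6), (8, 9), (8, 11), (9, 9), (9, 10)] = true := by decide +kernel

/-- **A-SOLVE, weight 3** -/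
theorem solve_three (h : Ops Fp ta) {v : LK} (hv : v ∈ Wt 3) (h0 : brK v (T ta v) = 0) :
    ∃ K1 K2 A A2 B : KK, A * A2 = 0 ∧ v = vN K1 K2 A A2 B := by
  obtain ⟨x, rfl⟩ := mem_Wt cov3 hv
  rw [← TL_apply] at h0
  have e1 := eqn h hS3 h0 (Sum.inr 104) (fun u h => by cases h; decide) (L := [(12, 12)]) k3_e104
  have e2 := eqn h hS3 h0 (Sum.inr 98) (fun u h => by cases h; decide) (L := [(8, 8)]) k3_e98
  have e3 := eqn h hS3 h0 (Sum.inl 7) (fun u h => by cases h) (L := [(0, 0), (2, 2)]) k3_h7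
  have e4 := eqn h hS3 h0 (Sum.inr 113) (fun u h => by cases h; decide) (L := [(2, 2), (4, 4)]) k3_e113
  have e5 := eqn h hS3 h0 (Sum.inr 135) (fun u h => by cases h; decide) (L := [(12, 13), (13, 13)]) k3_e135
  have e6 := eqn h hS3 h0 (Sum.inl 2) (fun u h => by cases h) (L := [(4, 4), (8, 8), (12, 12), (12, 13)]) k3_h2
  have e8 := eqn h hS3 h0 (Sum.inr 141) (fun u h => by cases h; decide) (L := [(8, 10), (8, 11), (9, 10), (10, 10)]) k3_e141
  have e9 := eqn h hS3 h0 (Sum.inl 1) (fun u h => by cases h) (L := [(0, 0), (4, 4), (8, 10), (8, 11), (9, 10), (12, 12)]) k3_h1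
  have e10 := eqn h hS3 h0 (Sum.inr 126) (fun u h => by cases h; decide) (L := [(2, 3), (3, 3), (4, 6), (4, 7), (5, 6), (6, 6)]) k3_e126
  have e11 := eqn h hS3 h0 (Sum.inl 4) (fun u h => by cases h) (L := [(0, 0), (2, 3), (4, 4), (4, 6), (4, 7), (5, 6), (8, 8), (12, 12)]) k3_h4
  have e13 := eqn h hS3 h0 (Sum.inr 121) (fun u h => by cases h; decide) (L := [(0, 1), (1, 1), (4, 5), (4, 7), (5, 5), (5, 6), (8, 9), (8, 11), (9, 9), (9, 10)]) k3_e121
  simp only [List.map_cons, List.map_nil, List.sum_cons, List.sum_nil] at e1 e2 e3 e4 e5 e6 e8 e9 e10 e11 e13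
  obtain ⟨z1, z125, z184, z174, z153, z171, z166, h2, h129, hc⟩ := Cfsg.Agent.H911.L16.solve3 (K := KK) two_zero
    (v2 := x 1) (v1 := x 0) (v129 := x 3) (v125 := x 2) (v184 := x 13) (v174 := x 12) (v157 := x 7) (v154 := x 5)
    (v156 := x 6) (v153 := x 4) (v172 := x 11) (v167 := x 9) (v171 := x 10) (v166 := x 8) (by linear_combination e1)
    (by linear_combination e2) (by linear_combination e3) (by linear_combination e4) (by linear_combination e5)
    (by linear_combination e6) (by linear_combination e8) (by linear_combination e9) (by linear_combination e10)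
    (by linear_combination e11) (by linear_combination e13)
  refine ⟨x 7, x 11, x 5, x 6, x 9, ?_, ?_⟩
  · rcases hc with hc | hc <;> rw [hc]
    · exact mul_zero _
    · exact zero_mul _
  · show ∑ k, x k • er (S3 k) = _
    rw [sum14, z1, z125, z184, z174, z153, z171, z166, h2, h129]
    unfold vN
    simp only [zero_smul, zero_add, add_zero, add_smul, smul_add]
    show x 5 • er 2 + x 9 • er 2 + x 6 • er 129 + x 5 • er 154 + x 6 • er 156 + x 7 • er 157 + x 9 • er 167 +
      x 11 • er 172 = _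
    abel

end Cfsg.Agent.H547.L16
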